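import Mathlib
import Cfsg.Agent.GW.Base
import Cfsg.Agent.H27.Real2
import Cfsg.Agent.H2.Pump

/-! Groups in which centralizers of real elements of odd order are transitive on Sylow `2`-subgroups. -/

set_option autoImplicit false
set_option linter.unusedSectionVars false

namespace Cfsg.Agent.H20.RG

open Subgroup Cfsg.Agent.FT Cfsg.Agent.GW
open scoped commutatorElement

variable {G : Type*} [Group G] [Finite G] {A C H K L M P R S T U V : Subgroup G} {a b c e g k s t u v x y z : G}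

/-- `x` has odd prime order -/
def Op (x : G) : Prop := (orderOf x).Prime ∧ orderOf x ≠ 2

theorem Op.odd (h : Op x) : Odd (orderOf x) := h.1.odd_of_ne_two h.2

theorem Op.ne (h : Op x) : x ≠ 1 := fun e => h.1.ne_one (by simp [e])

theorem Op.conj (h : Op x) (g : G) : Op (g * x * g⁻¹) := by
  unfold Op
  rwa [FT.orderOf_conj]

theorem Op.pElt (h : Op x) : PiElt {orderOf x} x := pElt_of_pow_eq_one h.1 (pow_orderOf_eq_one x)

theorem exists_op (ho : Odd (orderOf x)) (h1 : x ≠ 1) : ∃ y ∈ ⟪x⟫, Op y := by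
  obtain ⟨y, hy, p⟩ := exists_prime_order_zpowers h1
  exact ⟨y, hy, p, fun e => (odd_orderOf (odd_zp ho) hy).not_two_dvd_nat (e ▸ dvd_rfl)⟩

theorem bs (hs : Invo s) (hM : s ∈ M) (h : s ∉ O[{2}](M)) : ∃ x ∈ M, Op x ∧ s * x * s⁻¹ = x⁻¹ := by
  obtain ⟨x, x1, xo, xi⟩ := H27.exists_odd_inverted (s := (⟨s, hM⟩ : M)) (Subtype.ext (by simpa [sq] using hs.sq))
    fun c => h (by rw [pcore_singleton Nat.prime_two]; exact ⟨_, c, rfl⟩)
  obtain ⟨y, hy, oy⟩ := exists_op (x := (x : G)) (by simpa using xo) fun e => x1 (Subtype.ext e)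
  exact ⟨y, zpowers_le.2 x.2 hy, oy, H27.inverts_of_mem_zpowers (congrArg Subtype.val xi) hy⟩

theorem closed (hS : Syl 2 S M) (h : ∀ x ∈ M, ∀ g ∈ M, Op x → g * x * g⁻¹ ≠ x⁻¹) : M ≤ N(S) := by
  obtain ⟨T, rfl⟩ := hS.exists_sylow Nat.prime_two
  have := H27.sylow_two_normal_of_no_real (fun x x1 xo xr => by
    obtain ⟨g, hg⟩ := isConj_iff.1 xr
    obtain ⟨y, hy, oy⟩ := exists_op (x := (x : G)) (by simpa using xo) fun e => x1 (Subtype.ext e)
    exact h y (zpowers_le.2 x.2 hy) g g.2 oy (H27.inverts_of_mem_zpowers (congrArg Subtype.val hg) hy)) T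
  exact (nml_map_subtype _).nrm

theorem sol_closed (hS : Syl 2 S M) (h : M ≤ N(S)) : Sol M :=
  let ⟨_, h1, h2⟩ := hS.exists_compl h
  h2.sol hS.pi.sol (sol_odd (odd_iff_p'.2 h1.pi))

theorem not_comm (hu : Invo u) (hx : Op x) (h : u * x * u⁻¹ = x⁻¹) : u * (x * u * x⁻¹) ≠ x * u * x⁻¹ * u := fun c => by
  have e : u * (x * u * x⁻¹) = x⁻¹ * x⁻¹ := by rw [← h, hu.inv]; group
  have e' : x * u * x⁻¹ * u = x * x := by
    rw [show x * u * x⁻¹ * u = x * (u * x * u⁻¹)⁻¹ by rw [hu.inv]; simp [mul_assoc, hu.inv], h, inv_inv]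
  rw [e, e'] at c
  have o : Odd (orderOf (x * x)) := odd_orderOf (odd_zp hx.odd) (mul_mem (mem_zpowers x) (mem_zpowers x))
  exact hx.ne (eq_one_of_sq hx.odd (eq_one_of_sq o (by nth_rewrite 1 [← c]; group)))

/-- a `2`-central involution of `M` -/
def Zc (M : Subgroup G) (z : G) : Prop := Invo z ∧ ∃ S, Syl 2 S M ∧ z ∈ Z(S)

theorem Zc.mem (h : Zc M z) : z ∈ M := let ⟨_, h1, h2⟩ := h.2; h1.le h2.1

theorem Zc.conj (h : Zc M z) (hg : g ∈ M) : Zc M (g * z * g⁻¹) :=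
  let ⟨S, h1, h2⟩ := h.2
  ⟨h.1.conj g, cj g S, h1.cj_mem hg, cj_center g S ▸ conj_mem_cj.2 h2⟩

theorem syl_cj (hS : Syl 2 S M) (hT : Syl 2 T M) (h : MulEq K (M ⊓ N(S)) M) : ∃ k ∈ K, T = cj k S := by
  obtain ⟨g, hg, rfl⟩ := hS.syl_trans hT
  obtain ⟨k, hk, n, hn, rfl⟩ := h.mul g hg
  exact ⟨k, hk, by rw [← cj_cj, cj_of_mem_nrm hn.2]⟩

structure HA (M : Subgroup G) : Prop where
  core : O[{2}](M) = ⊥
  tr : ∀ s ∈ M, ∀ x ∈ M, Invo s → Op x → s * x * s⁻¹ = x⁻¹ → ∀ S, Syl 2 S M → MulEq (M ⊓ C[x]) (M ⊓ N(S)) M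
  odd : ∀ s ∈ M, ∀ x ∈ M, Invo s → Op x → s * x * s⁻¹ = x⁻¹ → Odd #(M ⊓ C[x])

namespace HA

theorem ex (h : HA M) (hs : Invo s) (hM : s ∈ M) : ∃ x ∈ M, Op x ∧ s * x * s⁻¹ = x⁻¹ :=
  bs hs hM fun c => hs.ne (by rwa [h.core] at c)

theorem cen (h : HA M) (hz : Zc M z) (hT : Syl 2 T M) (hzT : z ∈ T) : z ∈ C(T) := by
  obtain ⟨x, hx, ox, ix⟩ := h.ex hz.1 hz.mem
  obtain ⟨S, hS, hzS⟩ := hz.2
  obtain ⟨k, hk, rfl⟩ := syl_cj hS hT (h.tr z hz.mem x hx hz.1 ox ix S hS)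
  have m := mem_cj.1 hzT
  have : z * k⁻¹ * z⁻¹ * k = 1 := eq_one_of_mem_inf (hS.pi.inf_eq_bot (odd_iff_p'.1 (h.odd z hz.mem x hx hz.1 ox ix)))
    (by simpa only [hz.1.inv, mul_assoc] using mul_mem (mem_inf.1 hzS).1 m)
    (mul_mem (conj_mem (normsI (zpowers_le.2 (le_nrm M hz.mem))
      (zpowers_le.2 (H27.mem_nrm_cen1_of_inverts ix)) (mem_zpowers z)) (inv_mem hk)) hk)
  rw [← cj_cen, mem_cj, show k⁻¹ * z * k = z⁻¹ * (z * k⁻¹ * z⁻¹ * k) by simp [hz.1.inv, mul_assoc, hz.1.cancel], this, mul_one]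
  exact inv_mem hzS.2

theorem comm2 (h : HA M) (hz : Zc M z) (hk : k ∈ M) (k2 : k * k = 1) (p : PiElt {2} (z * k)) : z * k = k * z := by
  have i : z * (z * k) * z⁻¹ = (z * k)⁻¹ := by
    rw [hz.1.cancel, mul_inv_rev, inv_eq_of_mul_eq_one_right k2]
  obtain ⟨T, hT, l⟩ := (p.zpowers.sup hz.1.pGrp (zpowers_le.2 (H27.mem_nrm_zpowers_of_inverts i))).exists_syl
    (sup_le (zpowers_le.2 (mul_mem hz.mem hk)) (zpowers_le.2 hz.mem))
  have m := l (mem_sup_right (mem_zpowers z))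
  exact (mem_cen.1 (h.cen hz hT m) k ((mul_mem_cancel_left m).1 (l (mem_sup_left (mem_zpowers _))))).symm

theorem no (h : HA M) (ha : Invo a) (hM : a ∈ M) (hc : c ∈ M) (i : a * c * a⁻¹ = c⁻¹) (o : Odd (orderOf c)) (hb : b ∈ M)
    (e : b * c = c * b) (ob : ¬ Odd (orderOf b)) : c = 1 := by_contra fun c1 => by
  obtain ⟨y, hy, oy⟩ := exists_op o c1
  exact ob (odd_orderOf (h.odd a hM y (zpowers_le.2 hc hy) ha oy (H27.inverts_of_mem_zpowers i hy))
    ⟨hb, cen1_le_cen1_of_mem_zpowers hy (mem_cen1.2 e)⟩)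

theorem comm (h : HA M) (ha : Zc M a) (hb : Zc M b) (o : ¬ Odd (orderOf (a * b))) : a * b = b * a := by
  refine h.comm2 ha hb.mem hb.1.sq (constt_compl_eq_one_iff.1 ?_)
  have m := constt_mem_zpowers {2}ᶜ (a * b)
  exact h.no ha.1 ha.mem (zpowers_le.2 (mul_mem ha.mem hb.mem) m) (H27.inverts_of_mem_zpowers (ha.1.inverts_mul hb.1) m)
    (H27.two'_nat_iff.1 (piElt_constt _ _)) (mul_mem ha.mem hb.mem) (constt_comm_self _ _).symm o

theorem trans (h : HA M) (ha : Zc M a) (hb : Zc M b) (hc : Zc M c) (e : a * b = b * a) (f : b * c = c * b) :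
    a * c = c * a := by
  by_cases o : Odd (orderOf (a * c))
  · have := h.no ha.1 ha.mem (mul_mem ha.mem hc.mem) (ha.1.inverts_mul hc.1) o hb.mem
      (by rw [← mul_assoc, ← e, mul_assoc, f, mul_assoc]) (by rw [hb.1]; decide)
    rw [this, mul_eq_one_comm.1 this]
  · exact h.comm ha hc o

theorem uniq (h : HA M) (hz : Zc M z) (hy : Zc M y) (e : z * y = y * z) : z = y := by_contra fun ne => by
  obtain ⟨x, hx, ox, ix⟩ := h.ex hz.1 hz.mem
  have zu := not_comm hz.1 ox ix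
  have hu := hz.conj hx
  generalize x * z * x⁻¹ = u at zu hu
  have hb := hy.conj hu.mem
  have o : Odd (orderOf (z * (u * y * u⁻¹))) := by_contra fun o => by
    have c := h.trans hy hz hb e.symm (h.comm hz hb o)
    refine zu (h.trans hz hy hu e (h.comm2 hy hu.mem hu.1.sq (piElt_of_pow_eq_one (n := 2 ^ 2)
      (piNat_self_pow Nat.prime_two 2) ?_)))
    calc (y * u) ^ 2 ^ 2 = y * (u * y * u⁻¹) * y * (u * y * u⁻¹) := by rw [hu.1.inv]; simp [pow_succ, mul_assoc]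
      _ = 1 := by rw [c, hy.1.cancel', hb.1.sq]
  obtain ⟨d, hd, dd⟩ := exists_sqrt o
  obtain ⟨w, hw, ww⟩ := exists_sqrt (odd_orderOf (odd_zp o) hd)
  have id := H27.inverts_of_mem_zpowers (hz.1.inverts_mul hb.1) hd
  have iw := H27.inverts_of_mem_zpowers id hw
  have hv := hz.conj (inv_mem (zpowers_le.2 (zpowers_le.2 (mul_mem hz.mem hb.mem) hd) hw))
  have ev : w⁻¹ * z * w⁻¹⁻¹ = z * d := by rw [inv_inv, ← ww]; nth_rewrite 1 [← iw]; group
  rw [ev] at hv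
  have kz : u * (z * d) * z * (u * (z * d))⁻¹ = y := by
    have : z * d * z * (z * d)⁻¹ = u * y * u⁻¹ := by
      rw [hv.1.inv, mul_assoc (z * d), hz.1.cancel, mul_assoc, dd, hz.1.cancel]
    calc _ = u * (z * d * z * (z * d)⁻¹) * u⁻¹ := by group
      _ = y := by rw [this, hu.1.conj_conj]
  generalize z * d = v at hv kz
  have hk := mul_mem hu.mem hv.mem
  have ik := hu.1.inverts_mul hv.1
  have ok : Odd (orderOf (u * v)) := by_contra fun o => by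
    have c := h.comm hu hv o
    have k2 : u * v * (u * v) = 1 := by nth_rewrite 1 [c]; rw [mul_assoc, hu.1.cancel, hv.1.sq]
    have := h.comm2 hz hk k2 (piElt_of_pow_eq_one (n := 2 ^ 2) (piNat_self_pow Nat.prime_two 2) (by
      calc (z * (u * v)) ^ 2 ^ 2 = z * (u * v * z * (u * v)⁻¹) * z * (u * v * z * (u * v)⁻¹) := by
            rw [inv_eq_of_mul_eq_one_right k2]; simp [pow_succ, mul_assoc]
        _ = 1 := by rw [kz, e, hz.1.cancel', hy.1.sq]))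
    exact ne (by rw [← kz, ← this, mul_inv_cancel_right])
  generalize u * v = k at kz hk ik ok
  obtain ⟨q, hq, oq⟩ := exists_op ok fun c => ne (by simpa [c] using kz)
  have iq := H27.inverts_of_mem_zpowers ik hq
  have qz : q * z * q⁻¹ * z = z * (q * z * q⁻¹) := by
    obtain ⟨n, rfl⟩ := mem_powers_iff_mem_zpowers.2 hq
    clear oq iq hq
    induction n with
    | zero => simp
    | succ n ih =>
      refine h.trans (hz.conj (pow_mem hk _)) hy hz ?_ e.symm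
      simp only at ih ⊢
      rw [← kz]
      calc _ = k * (k ^ n * z * (k ^ n)⁻¹ * z) * k⁻¹ := by group
        _ = _ := by rw [ih]; group
  have hq := zpowers_le.2 hk hq
  obtain ⟨S, hS, hzS⟩ := hz.2
  obtain ⟨T, hT, huT⟩ := hu.2
  obtain ⟨c, hc, rfl⟩ := syl_cj hS hT (h.tr u hu.mem q hq hu.1 oq iq S hS)
  have h1 := hz.conj hc.1
  have e1 := mem_cen.1 huT.2 _ (conj_mem_cj.2 hzS.1)
  have cq := mem_cen1.1 hc.2
  have e2 : q * (c * z * c⁻¹) * q⁻¹ * (c * z * c⁻¹) = c * z * c⁻¹ * (q * (c * z * c⁻¹) * q⁻¹) := by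
    have : q * (c * z * c⁻¹) * q⁻¹ = c * (q * z * q⁻¹) * c⁻¹ := by
      calc _ = (q * c) * z * (q * c)⁻¹ := by group
        _ = _ := by rw [← cq]; group
    rw [this]
    calc _ = c * (q * z * q⁻¹ * z) * c⁻¹ := by group
      _ = _ := by rw [qz]; group
  refine not_comm hu.1 oq iq (h.trans hu h1 (hu.conj hq) e1.symm (h.trans h1 (h1.conj hq) (hu.conj hq) e2.symm ?_))
  calc _ = q * (c * z * c⁻¹ * u) * q⁻¹ := by group
    _ = _ := by rw [e1]; group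

theorem zs (h : HA M) (hz : Zc M z) : ⁅M, ⟪z⟫⁆ ≤ Od(M) :=
  let ⟨_, hS, hzS⟩ := hz.2
  zstar_rel hS hzS.1 fun _ hg m => h.uniq (hz.conj hg) hz (mem_cen.1 hzS.2 _ m)

end HA

theorem le_pcore_of_syl {p : ℕ} (h : ∀ S, Syl p S M → A ≤ S) : A ≤ O[{p}](M) := by
  obtain ⟨S, hS⟩ := exists_syl p M
  have l : sInf {S | Syl p S M} ≤ S := sInf_le hS
  exact (le_sInf h).trans (pcore_max (hS.pi.mono l) ⟨l.trans hS.le, fun g hg => mem_nrm.2 fun x hx =>
    mem_sInf.2 fun T hT => by simpa [mem_cj] using mem_sInf.1 hx _ (Hall.cj_mem hT (inv_mem hg))⟩)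

theorem exists_zc (h : ¬ Odd #M) : ∃ z, Zc M z := by
  obtain ⟨S, hS⟩ := exists_syl 2 M
  obtain ⟨z, hz, o⟩ := (hS.pi.inf_left _).exists_elt (hS.pi.center_ne_bot fun e =>
    h (Nat.odd_iff.2 (Nat.two_dvd_ne_zero.1 ((hS.syl_eq_bot_iff Nat.prime_two).1 e))))
  exact ⟨z, o, S, hS, hz⟩

structure HB (l : ℕ) (σ : Set ℕ) (L C M : Subgroup G) : Prop where
  two : l ≠ 2
  ne : L ≠ ⊥
  syl : Syl l L M
  cyc : Cyc L
  cen : M ⊓ C(L) = C
  ab : Ab C
  odd : Odd #C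
  hall : Hall σ C M
  tr : ∀ S, Syl 2 S M → MulEq C (M ⊓ N(S)) M
  core : O[{2}](M) = ⊥
  real : ∀ x ∈ M, ∀ g ∈ M, Op x → g * x * g⁻¹ = x⁻¹ → orderOf x ∈ σ

namespace HB

variable {l : ℕ} {σ : Set ℕ}

theorem le (h : HB l σ L C M) : L ≤ C := h.cen ▸ le_inf h.syl.le h.cyc.ab.le_cen

theorem sub (h : HB l σ L C M) (hC : C ≤ H) (hH : H ≤ M) : HB l σ L C H where
  two := h.two
  ne := h.ne
  syl := h.syl.subl (h.le.trans hC) hH
  cyc := h.cyc
  cen := le_antisymm ((inf_le_inf_right _ hH).trans h.cen.le) (le_inf hC (h.cen.ge.trans inf_le_right))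
  ab := h.ab
  odd := h.odd
  hall := h.hall.subl hC hH
  tr R hR := by
    obtain ⟨S, hS, l⟩ := hR.pi.exists_syl (hR.le.trans hH)
    have := (h.tr S hS).inf_left hC
    rw [inf_eq_left.2 hH] at this
    refine this.mono le_rfl hC (le_inf inf_le_left ?_) inf_le_left
    rw [← hR.max (hS.pi.inf_right H) (le_inf hR.le l) inf_le_left]
    exact normsI (inf_le_left.trans (le_nrm H)) (inf_le_right.trans inf_le_right)
  core := by
    obtain ⟨S, hS, l⟩ := (pcore_pi {2} H).exists_syl ((pcore_le _ _).trans hH)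
    refine eq_bot_of_le (le_pcore_of_syl fun T hT => ?_) h.core
    obtain ⟨c, hc, rfl⟩ := syl_cj hS hT (h.tr S hS)
    rw [← cj_of_mem_nrm (pcore_nrm {2} H (hC hc))]
    exact cj_mono c l
  real x hx g hg := h.real x (hH hx) g (hH hg)

theorem key0 (h : HB l σ L C M) (ih : ∀ H < M, C ≤ H → L ≤ Od(H)) (hs : Invo s) (hM : s ∈ M) (hx : x ∈ C) (ox : Op x)
    (i : s * x * s⁻¹ = x⁻¹) : Odd #(M ⊓ C[x]) ∧ ∃ m ∈ M, m * s * m⁻¹ ∈ N(L) := by
  have sH : s ∉ M ⊓ C[x] := fun c => ox.ne (eq_one_of_inv_comm ox.odd i (mem_cen1.1 c.2))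
  have sN : ⟪s⟫ ≤ N(M ⊓ C[x]) :=
    normsI (zpowers_le.2 (le_nrm M hM)) (zpowers_le.2 (H27.mem_nrm_cen1_of_inverts i))
  have HM : M ⊓ C[x] ≤ M := inf_le_left
  have LH := ih _ (lt_of_le_of_ne HM fun c => sH (c.ge hM)) (le_inf h.hall.le (h.ab.le_cen1 hx))
  generalize M ⊓ C[x] = H at sH sN HM LH
  have n := nml_sup_left sN
  have sK : s ∈ H ⊔ ⟪s⟫ := mem_sup_right (mem_zpowers s)
  have KM : H ⊔ ⟪s⟫ ≤ M := sup_le HM (zpowers_le.2 hM)
  generalize H ⊔ ⟪s⟫ = K at n sK KM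
  have f := (h.syl.subl LH ((pcore_le _ _).trans HM)).frattini (n.pcore _)
  obtain ⟨T, hT⟩ := exists_syl 2 (K ⊓ N(L))
  have TL := hT.le.trans inf_le_right
  have hT' := hT.of_relIndex inf_le_left (f.relIndex_right ▸ (pcore_pi _ _).relIndex _)
  have cT : Cyc T := by
    refine cyc_of_faithful_prime (X := Ω[l](L)) (by rw [h.cyc.card_Ohm_pGrp h.syl.pi h.ne]; exact h.syl.pi.prime h.ne)
      (norms_Ohm l TL) (eq_bot_of_le (le_inf inf_le_left (le_trans (le_inf (inf_le_left.trans (hT'.le.trans KM)) ?_) h.cen.le))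
        (hT.pi.inf_eq_bot (odd_iff_p'.1 h.odd)))
    exact coprime_cyclic_faithful (inf_le_left.trans TL) (h.syl.pi.cop_of_ne (hT.pi.inf_left _) h.two) h.cyc h.syl.pi
      (ne_bot_of_le (le_inf (Ohm_le _ _) (centsC inf_le_right)) (h.syl.pi.Ohm_ne_bot h.ne))
  obtain ⟨a, ha, haT⟩ := hT'.syl_elt sK hs.pElt
  refine ⟨odd_of_no_invo fun e he ie => sH ?_, a, KM ha, TL haT⟩
  obtain ⟨b, hb, hbT⟩ := hT'.syl_elt (n.le he) ie.pElt
  have := (cT.eq_of_card_eq (zpowers_le.2 haT) (zpowers_le.2 hbT) (by rw [(hs.conj a).card, (ie.conj b).card])).le.trans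
    (zpowers_le.2 (n.conj_mem hb he)) (mem_zpowers _)
  simpa [mul_assoc] using n.conj_mem (inv_mem ha) this

theorem into (h : HB l σ L C M) (hx : x ∈ M) (hg : g ∈ M) (ox : Op x) (i : g * x * g⁻¹ = x⁻¹) :
    ∃ m ∈ M, m * x * m⁻¹ ∈ C := by
  obtain ⟨P, hP⟩ := exists_syl (orderOf x) C
  obtain ⟨m, hm, l⟩ := (h.hall.subHall_syl (h.real x hx g hg ox i) hP).syl_elt hx ox.pElt
  exact ⟨m, hm, hP.le l⟩

theorem key (h : HB l σ L C M) (ih : ∀ H < M, C ≤ H → L ≤ Od(H)) (hs : Invo s) (hM : s ∈ M) (hx : x ∈ M) (ox : Op x)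
    (i : s * x * s⁻¹ = x⁻¹) : Odd #(M ⊓ C[x]) ∧ ∃ m ∈ M, m * s * m⁻¹ ∈ N(L) := by
  obtain ⟨m, hm, l⟩ := h.into hx hM ox i
  obtain ⟨h1, a, ha, h2⟩ := h.key0 ih (hs.conj m) (conj_mem (le_nrm M hm) hM) l (ox.conj m) (by
    calc _ = m * (s * x * s⁻¹) * m⁻¹ := by group
      _ = _ := by rw [i]; group)
  rw [← cj_cen1, ← cj_of_mem hm, ← cj_inf, card_cj] at h1
  exact ⟨h1, a * m, mul_mem ha hm, by simpa only [mul_assoc, mul_inv_rev] using h2⟩

theorem le_core (M : Subgroup G) : HB l σ L C M → L ≤ Od(M) := by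
  induction M using WellFoundedLT.induction with | ind M ih => ?_
  intro h
  replace ih : ∀ H < M, C ≤ H → L ≤ Od(H) := fun H lt hC => ih H lt (h.sub hC lt.le)
  have ha : HA M := ⟨h.core, fun s hs x hx _ ox i S hS => by
    obtain ⟨m, hm, l⟩ := h.into hx hs ox i
    have := (h.tr _ (hS.cj_mem hm)).cj m⁻¹
    rw [cj_inf, cj_of_mem (inv_mem hm), cj_nrm, cj_inv_cj] at this
    refine this.mono (le_inf this.left ?_) inf_le_left le_rfl inf_le_left
    rw [cj_le_iff, inv_inv, cj_cen1]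
    exact h.ab.le_cen1 l, fun s hs x hx is ox i => (h.key ih is hs hx ox i).1⟩
  by_cases o : Odd #M
  · exact h.syl.le.trans (GW.le_core o (Nml.refl M))
  obtain ⟨z, hz⟩ := exists_zc o
  obtain ⟨x, hx, ox, i⟩ := ha.ex hz.1 hz.mem
  obtain ⟨m, hm, n⟩ := (h.key ih hz.1 hz.mem hx ox i).2
  have hz := hz.conj hm
  have c := hz.1.cop (odd_of_le h.le h.odd)
  rcases coprime_cyclic_cent_or (zpowers_le.2 n) c h.cyc h.syl.pi with e | e
  · exact absurd (h.cen.le ⟨hz.mem, e (mem_zpowers _)⟩) (hz.1.not_mem_odd h.odd)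
  · exact (coprime_comm_eq_of_cent_bot (zpowers_le.2 n) c (.inl h.cyc.sol) e).ge.trans
      ((commSS h.syl.le le_rfl).trans (ha.zs hz))

theorem sol (h : HB l σ L C M) : Sol M := by
  have f := (h.syl.subl (le_core M h) (pcore_le _ _)).frattini (pcore_nml _ M)
  rw [← f.sup]
  exact (sol_odd (odd_core M)).sup (sol_of_der (h.ab.sol.mono ((le_inf ((der_le _).trans inf_le_left)
    (h.cyc.der_cents inf_le_right)).trans h.cen.le))) (inf_le_left.trans (pcore_nrm _ _))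

end HB

end Cfsg.Agent.H20.RG
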