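import Mathlib

/-!
Real elements in abelian Sylow subgroups force an even automizer.
-/

set_option autoImplicit false

namespace Cfsg.Agent.H20

open Subgroup

theorem two_dvd_automizer {G : Type*} [Group G] [Finite G] {p : ℕ} [Fact p.Prime] (P : Sylow p G)
    (hP : IsMulCommutative (P : Subgroup G)) {y : G} (hy : IsPGroup p (zpowers y)) (h2 : y ^ 2 ≠ 1)
    (hr : IsConj y y⁻¹) :
    2 ∣ ((centralizer ((P : Subgroup G) : Set G)).subgroupOf (normalizer ((P : Subgroup G) : Set G))).index := by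
  obtain ⟨Q, hQ⟩ := hy.exists_le_sylow
  obtain ⟨g, rfl⟩ := MulAction.exists_smul_eq G P Q
  obtain ⟨x, hx, hxy⟩ : ∃ x ∈ (P : Subgroup G), g * x * g⁻¹ = y := by
    obtain ⟨z, hz, e⟩ := hQ (mem_zpowers y)
    exact ⟨z, hz, e⟩
  have hx2 : x ^ 2 ≠ 1 := fun h => h2 (by rw [← hxy, conj_pow, h]; simp)
  have hxr : IsConj x x⁻¹ := by
    have h1 : IsConj x y := isConj_iff.2 ⟨g, hxy⟩
    have h3 : IsConj x⁻¹ y⁻¹ := isConj_iff.2 ⟨g, by rw [← hxy]; group⟩
    exact (h1.trans hr).trans h3.symm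
  obtain ⟨c, hc⟩ := isConj_iff.1 hxr
  obtain ⟨n, hn, e⟩ := P.conj_eq_normalizer_conj_of_mem x c⁻¹ hx (by
    rw [inv_inv, hc]; exact (P : Subgroup G).inv_mem hx)
  rw [inv_inv, hc] at e
  by_contra h
  obtain ⟨k, hk⟩ : Odd ((centralizer ((P : Subgroup G) : Set G)).subgroupOf
      (normalizer ((P : Subgroup G) : Set G))).index := Nat.odd_iff.2 (Nat.two_dvd_ne_zero.1 h)
  have hm := Subgroup.pow_index_mem (H := (centralizer ((P : Subgroup G) : Set G)).subgroupOf
      (normalizer ((P : Subgroup G) : Set G))) ⟨n, hn⟩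
  rw [hk, mem_subgroupOf] at hm
  have hm' := mem_centralizer_iff.1 hm x hx
  simp only [SubmonoidClass.coe_pow] at hm'
  have e1 : x * n = n * x⁻¹ := by rw [e]; group
  have e2 : Commute x (n ^ 2) := by
    have e3 : x⁻¹ * n = n * x := by
      calc x⁻¹ * n = x⁻¹ * (n * x⁻¹) * x := by group
        _ = x⁻¹ * (x * n) * x := by rw [e1]
        _ = n * x := by group
    show x * n ^ 2 = n ^ 2 * x
    calc x * n ^ 2 = (x * n) * n := by rw [sq, mul_assoc]
      _ = n * (x⁻¹ * n) := by rw [e1, mul_assoc]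
      _ = n ^ 2 * x := by rw [e3, sq, mul_assoc]
  have e4 : Commute x (n ^ (2 * k)) := by rw [pow_mul]; exact e2.pow_right k
  have e5 : Commute x n := by
    have h5 : Commute x (n ^ (2 * k + 1)) := hm'
    have := (e4.inv_right).mul_right h5
    rwa [pow_succ, inv_mul_cancel_left] at this
  apply hx2
  have e6 : x = x⁻¹ := by
    have := e5.eq
    rw [e1] at this
    exact (mul_left_cancel this).symm
  rw [sq]; nth_rewrite 2 [e6]; exact mul_inv_cancel x

theorem exists_cycle_prime (n p : ℕ) (hp : p.Prime) (hpn : p ≤ n) :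
    ∃ c : Equiv.Perm (Fin n), c.cycleType = {p} := by
  refine (Equiv.Perm.exists_with_cycleType_iff (Fin n)).2 ⟨by simpa using hpn, ?_⟩
  intro a ha
  rw [Multiset.mem_singleton.1 ha]; exact hp.two_le

end Cfsg.Agent.H20
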