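import Cfsg.Agent.H8.Tr0

/-! S3105: central involutions, the cyclic centraliser and the final identification. -/

set_option autoImplicit false
set_option linter.unusedSectionVars false
set_option linter.unusedVariables false

namespace Cfsg.Agent.H8.Tr

open Cfsg Subgroup Cfsg.Agent.FT

universe u

variable {X : Type u} [Group X] [Finite X] {Q N D : Subgroup X} {σ ρ c z w : X}

theorem cen_nσ (h : B Q σ ρ) : ⟪σ⟫ ≤ N(Q) := by haveI := h.nQ; exact nrm_of _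

theorem cen_le (h : B Q σ ρ) : ⁅Q, ⟪σ⟫⁆ ≤ Q := comm_le_left (cen_nσ h)

theorem cen_nP (h : B Q σ ρ) : ⟪σ⟫ ≤ N(⁅Q, ⟪σ⟫⁆) := le_sup_right.trans (comm_nml_sup Q ⟪σ⟫).nrm

theorem cen_ti (h : B Q σ ρ) (hab : Ab ⁅Q, ⟪σ⟫⁆) : ⁅Q, ⟪σ⟫⁆ ⊓ C(⟪σ⟫) = ⊥ := by
  have := coprime_abel_cent_TI (cen_nP h) (h.cop (cen_le h)) hab
  rwa [coprime_commGid (cen_nσ h) (h.cop le_rfl)] at this

theorem cen_ab (h : B Q σ ρ) (h1 : S1 Q σ) : Ab ⁅Q, ⟪σ⟫⁆ := ab_iff_forall.2 fun x hx y hy =>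
  mem_cen.1 (h1.2.2 hy) x (cen_le h hx)

theorem cen_ex {K : Subgroup X} (l : List X) (h : l.length < #K) : ∃ y ∈ K, y ∉ l := by
  classical
  by_contra hn
  push Not at hn
  have h1 : (K : Set X) ⊆ (l.toFinset : Set X) := fun y hy => by simpa using hn y hy
  have h2 := Set.ncard_le_ncard h1
  rw [Set.ncard_coe_finset, ← Nat.card_coe_set_eq] at h2
  have h3 := l.toFinset_card_le
  have h4 : Nat.card (K : Set X) = #K := rfl
  omega

theorem cen_swap {H : Type*} [Group H] {x y z : H} (z2 : z * z = 1) (hc : ∀ g, g * z = z * g) (hx : x * x = z) (hy : y * y = z)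
    (hxy : x * y * (x * y) = z) : y * x = x * y * z := by
  have e1 : x⁻¹ = x * z := by rw [inv_eq_iff_mul_eq_one, ← mul_assoc, hx, z2]
  have e2 : y⁻¹ = y * z := by rw [inv_eq_iff_mul_eq_one, ← mul_assoc, hy, z2]
  calc y * x = x⁻¹ * (x * y * (x * y)) * y⁻¹ := by group
    _ = x * (z * z) * (y * z) := by rw [hxy, e1, e2]; group
    _ = _ := by rw [z2]; group

theorem cen (h : B Q σ ρ) (hz : z ∈ Q) (z2 : z * z = 1) (hc : z ∈ center X) [(⟪z⟫).Normal]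
    (h1 : S1 (Q.map (QuotientGroup.mk' ⟪z⟫)) (QuotientGroup.mk' ⟪z⟫ σ)) : S1 Q σ := by
  have hq := h.quo ⟪z⟫ (zpowers_le.2 hz)
  set π := QuotientGroup.mk' ⟪z⟫ with hπ
  have eP : ⁅Q.map π, ⟪π σ⟫⁆ = ⁅Q, ⟪σ⟫⁆.map π := by rw [map_commutator, MonoidHom.map_zpowers]
  have hk : ∀ g, π g = 1 ↔ g = 1 ∨ g = z := fun g => by
    rw [← zp2 z2]; exact QuotientGroup.eq_one_iff g
  have hz' : ∀ g, g * z = z * g := mem_center_iff.1 hc
  have hti := cen_ti hq (cen_ab hq h1)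
  have hnq := cen_nP hq (mem_zpowers _)
  obtain ⟨c8, hsq, hcen⟩ := h1
  rw [eP] at c8 hsq hcen hti hnq
  have sq : ∀ x ∈ ⁅Q, ⟪σ⟫⁆, x * x = 1 := fun x hx => by
    by_contra hx1
    have xz : x * x = z := ((hk _).1 (by rw [map_mul]; exact hsq _ ⟨x, hx, rfl⟩)).resolve_left hx1
    have z1 : z ≠ 1 := xz ▸ hx1
    have x1 : π x ≠ 1 := fun e => hx1 (by rcases (hk _).1 e with rfl | rfl; exacts [one_mul _, z2])
    have all : ∀ y ∈ ⁅Q, ⟪σ⟫⁆, π y ≠ 1 → y * y = z := fun y hy y1 => by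
      obtain ⟨s, -, hs⟩ := tr7 hq.o7 c8 hnq hti ⟨x, hx, rfl⟩ x1 ⟨y, hy, rfl⟩ y1
      obtain ⟨s, rfl⟩ := QuotientGroup.mk'_surjective ⟪z⟫ s
      have e0 : s * x * s⁻¹ * (s * x * s⁻¹) = z := by
        calc s * x * s⁻¹ * (s * x * s⁻¹) = s * (x * x) * s⁻¹ := by group
          _ = z := by rw [xz, hz']; group
      have : π ((s * x * s⁻¹)⁻¹ * y) = 1 := by rw [map_mul, map_inv, map_mul, map_mul, map_inv, hs, inv_mul_cancel]
      rcases (hk _).1 this with e | e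
      · rw [← inv_mul_eq_one.1 e, e0]
      · rw [inv_mul_eq_iff_eq_mul] at e
        rw [e, mul_assoc, ← mul_assoc z, ← hz', mul_assoc _ z, z2, mul_one, e0]
    obtain ⟨_, ⟨y, hy, rfl⟩, ny⟩ := cen_ex (K := ⁅Q, ⟪σ⟫⁆.map π) [1, (π x)⁻¹] (by rw [c8]; simp)
    obtain ⟨_, ⟨t, ht, rfl⟩, nt⟩ := cen_ex (K := ⁅Q, ⟪σ⟫⁆.map π) [1, (π x)⁻¹, (π y)⁻¹, (π x * π y)⁻¹] (by rw [c8]; simp)
    simp only [List.mem_cons, List.not_mem_nil, or_false, not_or] at ny nt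
    have ne : ∀ a b, π b ≠ (π a)⁻¹ → π (a * b) ≠ 1 := fun a b h e => h (by rw [map_mul] at e; exact eq_inv_of_mul_eq_one_right e)
    have a1 := cen_swap z2 hz' xz (all y hy ny.1) (all _ (mul_mem hx hy) (ne _ _ ny.2))
    have a2 := cen_swap z2 hz' xz (all t ht nt.1) (all _ (mul_mem hx ht) (ne _ _ nt.2.1))
    have a3 := cen_swap z2 hz' xz (all _ (mul_mem hy ht) (ne _ _ nt.2.2.1))
      (all _ (mul_mem hx (mul_mem hy ht)) (by rw [← mul_assoc]; exact ne _ _ (by rw [map_mul]; exact nt.2.2.2)))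
    refine z1 (mul_left_cancel (a := x * (y * t)) ?_)
    rw [← a3, mul_one, mul_assoc, a2, ← mul_assoc, ← mul_assoc, a1, mul_assoc (x * y), ← hz', mul_assoc, mul_assoc, mul_assoc t, z2,
      mul_one]
  have hab : Ab ⁅Q, ⟪σ⟫⁆ := ab_iff_forall.2 fun x hx y hy => by
    have e1 := inv_eq_of_mul_eq_one_right (sq x hx)
    have e2 := inv_eq_of_mul_eq_one_right (sq y hy)
    rw [← inv_eq_of_mul_eq_one_right (sq _ (mul_mem hx hy)), mul_inv_rev, e1, e2]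
  have ti : ∀ g ∈ ⁅Q, ⟪σ⟫⁆, π g = 1 → g = 1 := fun g hg e => by
    have : g ∈ ⁅Q, ⟪σ⟫⁆ ⊓ C(⟪σ⟫) := ⟨hg, mem_cen.2 fun s _ => by
      rcases (hk _).1 e with rfl | rfl
      · simp
      · exact hz' _⟩
    rwa [cen_ti h hab, mem_bot] at this
  refine ⟨?_, sq, fun x hx => mem_cen.2 fun q hq' => ?_⟩
  · rw [← c8]
    refine Nat.card_congr (Equiv.ofBijective _ ⟨?_, π.subgroupMap_surjective _⟩)
    rw [injective_iff_map_eq_one]
    exact fun g e => Subtype.ext (ti g g.2 (congrArg Subtype.val e))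
  · have hm : q * x * q⁻¹ * x⁻¹ ∈ ⁅Q, ⟪σ⟫⁆ :=
      mul_mem ((mem_normalizer_iff.1 ((comm_nml_left (cen_nσ h)).nrm hq') x).1 hx) (inv_mem hx)
    have := ti _ hm (by
      have := mem_cen.1 (hcen ⟨x, hx, rfl⟩) _ ⟨q, hq', rfl⟩
      rw [map_mul, map_mul, map_mul, map_inv, map_inv, this]; group)
    rwa [mul_inv_eq_one, mul_inv_eq_iff_eq_mul] at this

theorem cen_card (h : B Q σ ρ) (h1 : S1 Q σ) : #Q = 8 * #(Q ⊓ C(⟪σ⟫) : Subgroup X) := by
  have := (coprime_cent_prod (cen_nσ h) (h.cop le_rfl) (h.sol le_rfl)).card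
  rwa [inf_eq_bot_mono (cen_ti h (cen_ab h h1)) le_rfl inf_le_right, card_bot, mul_one, h1.1] at this

theorem cen_sq (h : B Q σ ρ) (h1 : S1 Q σ) {x : X} (hx : x ∈ Q) : ∃ b ∈ Q ⊓ C(⟪σ⟫), x * x = b * b := by
  obtain ⟨a, ha, b, hb, rfl⟩ := (coprime_cent_prod (cen_nσ h) (h.cop le_rfl) (h.sol le_rfl)).mul x hx
  refine ⟨b, hb, ?_⟩
  rw [mul_assoc, ← mul_assoc b, mem_cen.1 (h1.2.2 ha) b hb.1, ← mul_assoc, ← mul_assoc, h1.2.1 a ha, one_mul]

theorem cyc (h : B Q σ ρ) (h1 : S1 Q σ) : ∃ c ∈ Q, c * σ = σ * c ∧ ∀ x ∈ Q, x * σ = σ * x → x ∈ ⟪c⟫ := by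
  have pC : PGrp 2 (Q ⊓ C(⟪σ⟫)) := h.pQ.mono inf_le_left
  have hcy : Cyc (Q ⊓ C(⟪σ⟫)) := by
    by_contra hn
    have h4 := GO.four_Phi pC hn
    have := h.sr Q (Phi (Q ⊓ C(⟪σ⟫))) le_top ((Phi_le _).trans inf_le_left) fun x hx => by
      obtain ⟨b, hb, e⟩ := cen_sq h h1 hx
      rw [e]; exact GO.sq_Phi pC hb
    have h5 := FT.card_pos (Phi (Q ⊓ C(⟪σ⟫)))
    rw [cen_card h h1] at this
    omega
  obtain ⟨g, hg⟩ := hcy.exists_generator
  refine ⟨g, g.2.1, (mem_cen.1 g.2.2 σ (mem_zpowers _)).symm, fun x hx e => ?_⟩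
  obtain ⟨n, hn⟩ := hg ⟨x, hx, mem_cen.2 fun s hs => by
    obtain ⟨k, rfl⟩ := hs
    exact ((show Commute x σ from e).zpow_right k).eq.symm⟩
  exact ⟨n, congrArg Subtype.val hn⟩

theorem fin_e8 {H : Type*} [Group H] [Finite H] (h8 : Nat.card H = 8) (h2 : ∀ x : H, x * x = 1) :
    Nonempty (H ≃* (Fin 3 → Multiplicative (ZMod 2))) := by
  letI : CommGroup H := { ‹Group H› with
    mul_comm := fun x y => by
      rw [← inv_eq_of_mul_eq_one_right (h2 (x * y)), mul_inv_rev, inv_eq_of_mul_eq_one_right (h2 x),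
        inv_eq_of_mul_eq_one_right (h2 y)] }
  letI : Module (ZMod 2) (Additive H) := AddCommGroup.zmodModule fun x => by
    rw [two_nsmul]; exact h2 x.toMul
  have e := Module.natCard_eq_pow_finrank (K := ZMod 2) (V := Additive H)
  have e8 : Nat.card (Additive H) = 2 ^ 3 := h8
  rw [e8, Nat.card_zmod] at e
  have e3 := Nat.pow_right_injective le_rfl e
  let f := LinearEquiv.ofFinrankEq (R := ZMod 2) (Additive H) (Fin 3 → ZMod 2) (by rw [← e3]; simp)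
  exact ⟨(AddEquiv.toMultiplicativeRight f.toAddEquiv).trans (MulEquiv.funMultiplicative _ _)⟩

theorem fin (h : B Q σ ρ) (h1 : S1 Q σ) (hc : c ∈ Q) (hcσ : c * σ = σ * c) (hg : ∀ x ∈ Q, x * σ = σ * x → x ∈ ⟪c⟫)
    (h4 : c ^ 4 = 1) : (IsElementaryAbelian 2 Q ∧ (Nat.card Q = 8 ∨ Nat.card Q = 16)) ∨
      Nonempty (Q ≃* Multiplicative (ZMod 4) × (Fin 3 → Multiplicative (ZMod 2))) := by
  have eC : Q ⊓ C(⟪σ⟫) = ⟪c⟫ := le_antisymm (fun x hx => hg x hx.1 (mem_cen.1 hx.2 σ (mem_zpowers _)).symm)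
    (zpowers_le.2 ⟨hc, mem_cen.2 fun s hs => by
      obtain ⟨k, rfl⟩ := hs
      exact ((show Commute c σ from hcσ).zpow_right k).eq.symm⟩)
  have hcard := cen_card h h1
  rw [eC, Nat.card_zpowers] at hcard
  by_cases c2 : c * c = 1
  · have sq : ∀ x ∈ Q, x * x = 1 := fun x hx => by
      obtain ⟨b, hb, e⟩ := cen_sq h h1 hx
      rw [eC, zp2 c2] at hb
      rcases hb with rfl | rfl
      · rw [e, one_mul]
      · rw [e, c2]
    refine Or.inl ⟨⟨ab_iff_forall.2 fun x hx y hy => ?_, fun a ha => by rw [pow_two]; exact sq a ha⟩, ?_⟩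
    · rw [← inv_eq_of_mul_eq_one_right (sq _ (mul_mem hx hy)), mul_inv_rev, inv_eq_of_mul_eq_one_right (sq x hx),
        inv_eq_of_mul_eq_one_right (sq y hy)]
    · rcases (Nat.dvd_prime Nat.prime_two).1 (orderOf_dvd_of_pow_eq_one (show c ^ 2 = 1 by rw [pow_two, c2])) with e | e <;>
        rw [e] at hcard
      · exact Or.inl hcard
      · exact Or.inr hcard
  · right
    haveI : Fact (Nat.Prime 2) := ⟨Nat.prime_two⟩
    have o4 : orderOf c = 2 ^ (1 + 1) := orderOf_eq_prime_pow (by rwa [pow_one, pow_two]) h4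
    obtain ⟨e8⟩ := fin_e8 h1.1 fun x => Subtype.ext (h1.2.1 x x.2)
    let e4 : ⟪c⟫ ≃* Multiplicative (ZMod 4) := mulEquivOfCyclicCardEq (by rw [Nat.card_zpowers, o4]; simp)
    let φ : ⟪c⟫ × (⁅Q, ⟪σ⟫⁆ : Subgroup X) →* Q := (inclusion (zpowers_le.2 hc)).noncommCoprod (inclusion (cen_le h)) fun a b =>
      Subtype.ext (mem_cen.1 (h1.2.2 b.2) a (zpowers_le.2 hc a.2))
    have hs : Function.Surjective φ := fun x => by
      obtain ⟨a, ha, b, hb, e⟩ := (coprime_cent_prod (cen_nσ h) (h.cop le_rfl) (h.sol le_rfl)).symm.mul x x.2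
      exact ⟨(⟨a, eC ▸ ha⟩, ⟨b, hb⟩), Subtype.ext e.symm⟩
    exact ⟨(MulEquiv.ofBijective φ (hs.bijective_of_nat_card_le (by
      rw [Nat.card_prod, hcard, h1.1, Nat.card_zpowers, mul_comm]))).symm.trans (e4.prodCongr e8)⟩

end Cfsg.Agent.H8.Tr
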