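import Mathlib

/-! A model of the wreath product of the dihedral group of order eight by a group of order two. -/

set_option autoImplicit false
set_option linter.unusedVariables false

namespace Cfsg.Agent.H20.Wr

/-- the dihedral group of order eight -/
structure D where
  (x y w : Bool)
  deriving DecidableEq

namespace D

def st (x y w : Bool) : D :=
  cond x (cond y (cond w ⟨true, true, true⟩ ⟨true, true, false⟩) (cond w ⟨true, false, true⟩ ⟨true, false, false⟩))
    (cond y (cond w ⟨false, true, true⟩ ⟨false, true, false⟩) (cond w ⟨false, false, true⟩ ⟨false, false, false⟩))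

def mul : D → D → D
  | ⟨x, y, w⟩, ⟨x', y', w'⟩ => st (x ^^ x') (y ^^ y') ((w ^^ w') ^^ (x && y'))
def inv : D → D
  | ⟨x, y, w⟩ => st x y (w ^^ (x && y))
def o : D := ⟨false, false, false⟩

def all : List D := [⟨false, false, false⟩, ⟨false, false, true⟩, ⟨false, true, false⟩, ⟨false, true, true⟩,
  ⟨true, false, false⟩, ⟨true, false, true⟩, ⟨true, true, false⟩, ⟨true, true, true⟩]

theorem mem_all (p : D) : p ∈ all := by rcases p with ⟨_ | _, _ | _, _ | _⟩ <;> decide

instance decAll (p : D → Prop) [DecidablePred p] : Decidable (∀ x, p x) :=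
  decidable_of_iff (∀ x ∈ all, p x) ⟨fun h x => h x (mem_all x), fun h x _ => h x⟩

theorem assoc : ∀ p q r : D, mul (mul p q) r = mul p (mul q r) := by decide +kernel
theorem o_mul : ∀ p : D, mul o p = p := by decide +kernel
theorem inv_mul : ∀ p : D, mul (inv p) p = o := by decide +kernel

end D

/-- the wreath product -/
structure M where
  (u v : D)
  (e : Bool)
  deriving DecidableEq

namespace M

def st : D → D → Bool → M
  | ⟨x, y, w⟩, ⟨x', y', w'⟩, e => cond e ⟨⟨x, y, w⟩, ⟨x', y', w'⟩, true⟩ ⟨⟨x, y, w⟩, ⟨x', y', w'⟩, false⟩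

theorem st_eq (u v : D) (e : Bool) : st u v e = ⟨u, v, e⟩ := by cases e <;> rfl

def mul : M → M → M
  | ⟨u, v, e⟩, ⟨u', v', e'⟩ => cond e (st (u.mul v') (v.mul u') (!e')) (st (u.mul u') (v.mul v') e')
def inv : M → M
  | ⟨u, v, e⟩ => cond e (st v.inv u.inv true) (st u.inv v.inv false)

instance : Mul M := ⟨mul⟩
instance : One M := ⟨⟨D.o, D.o, false⟩⟩
instance : Inv M := ⟨inv⟩

def all : List M := D.all.flatMap fun u => D.all.flatMap fun v => [⟨u, v, false⟩, ⟨u, v, true⟩]

theorem mem_all (p : M) : p ∈ all := by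
  rcases p with ⟨u, v, e⟩
  refine List.mem_flatMap.2 ⟨u, D.mem_all u, List.mem_flatMap.2 ⟨v, D.mem_all v, ?_⟩⟩
  cases e <;> simp

instance : Group M := Group.ofLeftAxioms
  (fun p q r => by
    rcases p with ⟨_, _, _ | _⟩ <;> rcases q with ⟨_, _, _ | _⟩ <;> rcases r with ⟨_, _, _ | _⟩ <;>
      (change mul (mul _ _) _ = mul _ (mul _ _); simp only [mul, st_eq, cond_true, cond_false, Bool.not_true, Bool.not_false, D.assoc]))
  (fun p => by
    rcases p with ⟨_, _, _⟩
    change mul ⟨D.o, D.o, false⟩ _ = _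
    simp only [mul, st_eq, cond_false, D.o_mul])
  (fun p => by
    rcases p with ⟨_, _, _ | _⟩ <;>
      (change mul (inv _) _ = ⟨D.o, D.o, false⟩; simp only [mul, inv, st_eq, cond_true, cond_false, Bool.not_true, D.inv_mul]))

theorem nodup_all : all.Nodup := by decide +kernel

instance : Fintype M := ⟨⟨(all : Multiset M), nodup_all⟩, fun x => mem_all x⟩

instance (priority := high) decAll (p : M → Prop) [DecidablePred p] : Decidable (∀ x, p x) :=
  decidable_of_iff (∀ x ∈ all, p x) ⟨fun h x => h x (mem_all x), fun h x _ => h x⟩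

instance (priority := high) decEx (p : M → Prop) [DecidablePred p] : Decidable (∃ x, p x) :=
  decidable_of_iff (∃ x ∈ all, p x) ⟨fun ⟨x, _, h⟩ => ⟨x, h⟩, fun ⟨x, h⟩ => ⟨x, mem_all x, h⟩⟩

end M

def a : M := ⟨⟨true, false, false⟩, D.o, false⟩
def b : M := ⟨⟨false, true, false⟩, D.o, false⟩
def c : M := ⟨D.o, D.o, true⟩
def z : M := ⟨⟨false, false, true⟩, ⟨false, false, true⟩, false⟩
def m0 : M := ⟨⟨false, true, false⟩, ⟨true, false, false⟩, true⟩

def zz (x : M) (i : Bool) : M := cond i (x * z) x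

def dw {G : Type*} [Group G] (A B : G) (u : D) : G := cond u.w (A * B * A * B) 1 * cond u.y B 1 * cond u.x A 1

/-- normal form -/
def wd {G : Type*} [Group G] (A B C : G) (x : M) : G := dw A B x.u * C * dw A B x.v * C * cond x.e C 1

theorem wd_self : ∀ x : M, wd a b c x = x := by decide +kernel

theorem map_cond {G H F : Type*} [Group G] [Group H] [FunLike F G H] [MonoidHomClass F G H] (φ : F) (t : Bool) (A : G) :
    φ (cond t A 1) = cond t (φ A) 1 := by cases t <;> simp

theorem map_wd {G H F : Type*} [Group G] [Group H] [FunLike F G H] [MonoidHomClass F G H] (φ : F) (A B C : G) (x : M) :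
    φ (wd A B C x) = wd (φ A) (φ B) (φ C) x := by
  simp only [wd, dw, map_mul, map_cond]

theorem hom_eq {H F : Type*} [Group H] [FunLike F M H] [MonoidHomClass F M H] (φ : F) (x : M) :
    φ x = wd (φ a) (φ b) (φ c) x := by rw [← map_wd, wd_self]

def nz (x y : M) : Prop := x = y ∨ x = y * z

instance (x y : M) : Decidable (nz x y) := by unfold nz; infer_instance

theorem nz.ex {x y : M} (h : nz x y) : ∃ i, x = zz y i := h.elim (fun e => ⟨false, e⟩) fun e => ⟨true, e⟩

def sg (i j k : Bool) : M → M := wd (zz a i) (zz b j) (zz c k)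
def ta (i j k : Bool) : M → M := wd (zz b i) (zz a j) (zz c k)

abbrev inZ (x : M) : Prop := x.e = false ∧ x.u.x = false ∧ x.u.y = false ∧ x.v.x = false ∧ x.v.y = false
abbrev in1 (x : M) : Prop := x.e = false ∧ x.u.y = false ∧ x.v.y = false
abbrev in2 (x : M) : Prop := x.e = false ∧ x.u.x = false ∧ x.v.x = false

end Cfsg.Agent.H20.Wr
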