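import Cfsg.Agent.H20.Wr0

/-! Finite checks in the model. -/

set_option autoImplicit false
set_option linter.unusedVariables false

namespace Cfsg.Agent.H20.Wr

theorem cl1 : ∀ C : M, C * C = 1 → (∀ m : M, C * (m * C * m⁻¹) = m * C * m⁻¹ * C) ∨ (∀ X : M, X * C = C * X → X * X = 1) ∨
    ∃ m : M, m * C * m⁻¹ = c := by
  decide +kernel

set_option synthInstance.maxSize 4096 in
set_option synthInstance.maxHeartbeats 400000 in
theorem cl2 : ∀ A : M, A * A = 1 → A * (c * A * c) = c * A * c * A → ∀ B : M, B * B = 1 →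
    A * (c * B * c) = c * B * c * A → B * (c * B * c) = c * B * c * B →
    A * B * A * B * c * (A * B * A * B) * c ≠ 1 → A * B * A * B * (A * B * A * B) = 1 →
    ∃ m : M, nz (m * c * m⁻¹) c ∧ ((nz (m * A * m⁻¹) a ∧ nz (m * B * m⁻¹) b) ∨ (nz (m * A * m⁻¹) b ∧ nz (m * B * m⁻¹) a)) := by
  decide +kernel

theorem sg_base : ∀ (i j k : Bool) (x : M), x.e = false → (sg i j k x).e = false ∧ inZ (x * sg i j k x) := by decide +kernel
theorem sg_sq : ∀ i j k : Bool, sg i j k (sg i j k a) = a ∧ sg i j k (sg i j k b) = b ∧ sg i j k (sg i j k c) = c := by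
  decide +kernel
theorem sg_zero : ∀ x : M, sg false false false x = x := wd_self
theorem ta_sq : ∀ (i j k : Bool) (s : M), s * a * s⁻¹ = ta i j k (ta i j k a) → s * c * s⁻¹ = ta i j k (ta i j k c) →
    s * b * s⁻¹ = ta i j k (ta i j k b) → i = j := by decide +kernel
theorem ta_in : ∀ (i j k : Bool) (x : M), (in1 x → in2 (ta i j k x)) ∧ (in2 x → in1 (ta i j k x)) := by decide +kernel
theorem cj_in : ∀ x : M, (in1 x → ∀ m : M, in1 (m * x * m⁻¹)) ∧ (in2 x → ∀ m : M, in2 (m * x * m⁻¹)) := by decide +kernel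
theorem cj_b : ∀ (i j k : Bool) (m : M), ¬ in1 (m * ta i j k a * m⁻¹) := by decide +kernel
theorem q_in : ∀ v : M, v * v = 1 → (∀ m : M, v * (m * v * m⁻¹) = m * v * m⁻¹ * v) → in1 v ∨ in2 v := by decide +kernel
theorem ta_v : ∀ (i j k : Bool) (v : M), in1 v ∨ in2 v → in1 (v * ta i j k v) ∨ in2 (v * ta i j k v) → inZ v := by decide +kernel
theorem cen_M : ∀ x : M, x * a = a * x → x * b = b * x → x * c = c * x → x = 1 ∨ x = z := by decide +kernel
theorem z_cen : ∀ x : M, x * z = z * x := by decide +kernel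
theorem base_mul : ∀ x : M, x.e = false → ∀ y : M, y.e = false → (x * y).e = false := by
  rintro ⟨_, _, _⟩ rfl ⟨_, _, _⟩ rfl
  change (M.mul _ _).e = _
  simp only [M.mul, M.st_eq, cond_false]
theorem base_inv : ∀ x : M, x.e = false → (x⁻¹).e = false := by decide +kernel
theorem inZ_mul : ∀ x : M, inZ x → ∀ y : M, inZ y → inZ (x * y) := by decide +kernel
theorem inZ_inv : ∀ x : M, inZ x → inZ x⁻¹ := by decide +kernel

/-- the base group -/
def Bs : Subgroup M where
  carrier := {x | x.e = false}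
  one_mem' := rfl
  mul_mem' {x y} hx hy := base_mul x hx y hy
  inv_mem' {x} hx := base_inv x hx

/-- the centre of the base group -/
def ZB : Subgroup M where
  carrier := {x | inZ x}
  one_mem' := by change inZ 1; decide
  mul_mem' {x y} hx hy := inZ_mul x hx y hy
  inv_mem' {x} hx := inZ_inv x hx

theorem card_of (H : Subgroup M) (p : M → Prop) [DecidablePred p] (h : ∀ g, g ∈ H ↔ p g) :
    Nat.card H = (Finset.univ.filter p).card := by
  rw [← Fintype.card_subtype, ← Nat.card_eq_fintype_card]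
  exact Nat.card_congr (Equiv.subtypeEquivRight h)

theorem card_M : Nat.card M = 128 := by rw [Nat.card_eq_fintype_card]; decide +kernel
theorem card_Bs : Nat.card Bs = 64 := (card_of Bs (fun x => x.e = false) fun _ => Iff.rfl).trans (by decide +kernel)
theorem card_ZB : Nat.card ZB = 4 := (card_of ZB inZ fun _ => Iff.rfl).trans (by decide +kernel)

end Cfsg.Agent.H20.Wr
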